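import Cfsg.Agent.SylowToolkit
import Cfsg.Agent.SylowToolkit.CentralInvolution
import Cfsg.Agent.Sieve.PrimeLocal
import Cfsg.Agent.ZStar.Theorem
import Cfsg.Agent.PGroup.Normal

/-!
An involution centralising a Sylow `p`-subgroup whose normaliser contains a Sylow 2-subgroup, and a
count of the elements whose order is divisible by a prime of exponent one.
-/

set_option autoImplicit false

namespace CfsgLib.OrderSieve

open CfsgLib.SylowToolkit Subgroup MulAction
open CfsgLib.Sieve.PrimeLocal (HasLocal)

variable {G : Type*} [Group G] [Finite G] {p : ℕ} [hp : Fact p.Prime]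

/-- A single fixed point of every such involution makes one of them isolated. -/
theorem false_of_single_fixed [IsSimpleGroup G] (hG : ¬ IsMulCommutative G) {n : ℕ}
    (hn : Nat.card (Sylow p G) = n) (hn2 : ¬ 2 ∣ n) (P : Sylow p G)
    (hP : Nat.card (P : Subgroup G) = p) (hp2 : p ≠ 2)
    (hgen : ∀ (T : Sylow 2 G), (T : Subgroup G) ≤ normalizer ((P : Subgroup G) : Set G) →
      Nat.card (normalizer ((P : Subgroup G) : Set G)) = p * Nat.card (T : Subgroup G))
    (hC : 2 ∣ Nat.card (centralizer ((P : Subgroup G) : Set G)))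
    (hfix : ∀ f, f % p = 1 → f % 4 = n % 4 → f < n → f = 1) : False := by
  classical
  haveI : Fact (Nat.Prime 2) := ⟨Nat.prime_two⟩
  set NP := normalizer ((P : Subgroup G) : Set G) with hNP
  obtain ⟨T₀⟩ := (inferInstance : Nonempty (Sylow 2 NP))
  have hidx : NP.index = n := P.card_eq_index_normalizer.symm.trans hn
  have hT0 : Nat.card (T₀ : Subgroup NP) = 2 ^ (Nat.card NP).factorization 2 := T₀.card_eq_multiplicity
  have hfac : (Nat.card G).factorization 2 = (Nat.card NP).factorization 2 := by
    rw [← NP.card_mul_index, hidx, Nat.factorization_mul Nat.card_pos.ne' (fun h => hn2 (by rw [h]; exact dvd_zero 2)),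
      Finsupp.add_apply, Nat.factorization_eq_zero_of_not_dvd hn2, add_zero]
  set T' := (T₀ : Subgroup NP).map NP.subtype with hT'
  have hT'c : Nat.card T' = 2 ^ (Nat.card G).factorization 2 := by
    rw [hT', card_map_of_injective NP.subtype_injective, hT0, hfac]
  obtain ⟨T, hTT⟩ := (IsPGroup.of_card hT'c).exists_le_sylow
  have hTeq : T' = (T : Subgroup G) := eq_of_le_of_card_ge hTT (by rw [hT'c, T.card_eq_multiplicity])
  have hTN : (T : Subgroup G) ≤ NP := hTeq ▸ map_subtype_le _
  have hNc := hgen T hTN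
  -- a central element of `T` in the centraliser
  set C := centralizer ((P : Subgroup G) : Set G) with hCdef
  have hC2 : (C.subgroupOf (T : Subgroup G)) ≠ ⊥ := by
    intro h
    have hle : C ≤ NP := centralizer_le_normalizer _
    have h1 := Subgroup.card_dvd_of_le (show (T : Subgroup G) ⊔ C ≤ NP from sup_le hTN hle)
    obtain ⟨⟨c, hcC⟩, hc2⟩ := exists_prime_orderOf_dvd_card' (G := C) 2 hC
    rw [orderOf_mk] at hc2
    obtain ⟨S, hS⟩ := (IsPGroup.of_card (n := 1) (show Nat.card (zpowers (⟨c, hle hcC⟩ : NP)) = 2 ^ 1 by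
      rw [Nat.card_zpowers, orderOf_mk, hc2, pow_one])).exists_le_sylow
    obtain ⟨g, hg⟩ := MulAction.exists_smul_eq NP S T₀
    have hcS : (⟨c, hle hcC⟩ : NP) ∈ (S : Subgroup NP) := hS (mem_zpowers _)
    have hmem : g * ⟨c, hle hcC⟩ * g⁻¹ ∈ (T₀ : Subgroup NP) := by
      rw [← hg, Sylow.coe_subgroup_smul]
      exact ⟨_, hcS, rfl⟩
    have hcg : (g : G) * c * (g : G)⁻¹ ∈ C := by
      refine mem_centralizer_iff.mpr fun w hw => ?_
      have hw' : (g : G)⁻¹ * w * g ∈ (P : Subgroup G) := by
        have h' := (mem_normalizer_iff.mp (inv_mem g.2) w).mp hw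
        rwa [inv_inv] at h'
      have he := mem_centralizer_iff.mp hcC _ hw'
      calc w * (g * c * (g : G)⁻¹) = g * ((g : G)⁻¹ * w * g * c) * (g : G)⁻¹ := by group
        _ = g * c * (g : G)⁻¹ * w := by rw [he]; group
    have hT : (g : G) * c * (g : G)⁻¹ ∈ (T : Subgroup G) := hTeq ▸ ⟨_, hmem, rfl⟩
    have hm : (⟨_, hT⟩ : (T : Subgroup G)) ∈ C.subgroupOf (T : Subgroup G) := mem_subgroupOf.mpr hcg
    rw [h, mem_bot] at hm
    have h' : (g : G) * c * (g : G)⁻¹ = 1 := congrArg Subtype.val hm
    rw [mul_inv_eq_one, mul_eq_left] at h'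
    rw [h', orderOf_one] at hc2
    norm_num at hc2
  haveI hnorm : (C.subgroupOf (T : Subgroup G)).Normal := ⟨fun a ha g => by
    rw [mem_subgroupOf] at ha ⊢
    refine mem_centralizer_iff.mpr fun w hw => ?_
    have hgN : (g : G) ∈ NP := hTN g.2
    have hw' : (g : G)⁻¹ * w * g ∈ (P : Subgroup G) := by
      have h' := (mem_normalizer_iff.mp (inv_mem hgN) w).mp hw
      rwa [inv_inv] at h'
    have he := mem_centralizer_iff.mp ha _ hw'
    push_cast
    calc w * ((g : G) * a * (g : G)⁻¹) = g * ((g : G)⁻¹ * w * g * a) * (g : G)⁻¹ := by group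
      _ = g * a * (g : G)⁻¹ * w := by rw [he]; group⟩
  obtain ⟨t', ht'⟩ : ∃ t' : ↥(C.subgroupOf (T : Subgroup G) ⊓ center (T : Subgroup G)), orderOf t' = 2 := by
    refine exists_prime_orderOf_dvd_card' 2 ?_
    obtain ⟨k, hk⟩ := IsPGroup.iff_card.mp (T.2.to_subgroup
      (C.subgroupOf (T : Subgroup G) ⊓ center (T : Subgroup G)))
    rw [hk]
    refine dvd_pow_self 2 fun h0 => ?_
    rw [h0, pow_zero, card_eq_one] at hk
    exact CfsgLib.PGroup.inf_center_ne_bot T.2 _ hC2 hk
  set t : G := ((t' : (T : Subgroup G)) : G) with ht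
  have hto : orderOf t = 2 := by rw [ht, orderOf_coe, orderOf_coe, ht']
  have htC : t ∈ C := mem_subgroupOf.mp t'.2.1
  have htT : t ∈ (T : Subgroup G) := (t' : (T : Subgroup G)).2
  have htc : ∀ s ∈ (T : Subgroup G), s * t = t * s := fun s hs =>
    congrArg Subtype.val (mem_center_iff.mp t'.2.2 ⟨s, hs⟩)
  have hd : p ∣ Nat.card G := hP ▸ card_subgroup_dvd_card _
  have hf : FaithfulSylow p G := toPermHom_sylow_injective hG hd
  have hone : fixCount p t = 1 := by
    refine hfix _ ?_ ?_ (lt_of_lt_of_eq (fixCount_lt hf fun h => by rw [h, orderOf_one] at hto; norm_num at hto) hn)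
    · have := fixCount_centralizing_modEq hP htC
      rw [Nat.ModEq, Nat.one_mod_eq_one.mpr hp.out.ne_one] at this
      exact this
    · have := fixCount_involution_modEq hf (fun g => sign_eq_one hG _ g) hto
      rwa [hn] at this
  have htP : t • P = P := Sylow.smul_eq_iff_mem_normalizer.mpr (hTN htT)
  have hall : ∀ Q : Sylow p G, t • Q = Q → Q = P := by
    intro Q hQ
    obtain ⟨hs, -⟩ := Nat.card_eq_one_iff_unique.mp hone
    exact congrArg Subtype.val (@Subsingleton.elim _ hs ⟨Q, hQ⟩ ⟨P, htP⟩)
  -- `N(P)` is generated by `P` and `T`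
  have hgenN : ∀ g ∈ NP, g * t * g⁻¹ = t := by
    have hsup : (P : Subgroup G) ⊔ (T : Subgroup G) = NP := by
      refine eq_of_le_of_card_ge (sup_le le_normalizer hTN) (Nat.le_of_dvd Nat.card_pos ?_)
      rw [hNc]
      refine Nat.Coprime.mul_dvd_of_dvd_of_dvd ?_ (dvd_trans (dvd_of_eq hP.symm) (card_dvd_of_le le_sup_left)) (card_dvd_of_le le_sup_right)
      rw [T.card_eq_multiplicity]
      exact Nat.Coprime.pow_right _ ((Nat.coprime_primes hp.out Nat.prime_two).mpr hp2)
    intro g hg
    have hle : NP ≤ centralizer ({t} : Set G) := hsup.ge.trans <| sup_le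
      (fun a ha => mem_centralizer_singleton_iff.mpr (mem_centralizer_iff.mp htC a ha))
      (fun a ha => mem_centralizer_singleton_iff.mpr (htc a ha))
    rw [mul_inv_eq_iff_eq_mul]
    exact mem_centralizer_singleton_iff.mp (hle hg)
  have hiso : ∀ g : G, g * t * g⁻¹ ∈ T → g * t * g⁻¹ = t := by
    intro g hg
    refine hgenN g (Sylow.smul_eq_iff_mem_normalizer.mp ?_)
    have h1 : (g * t * g⁻¹) • P = P := Sylow.smul_eq_iff_mem_normalizer.mpr (hTN hg)
    have h2 : t • (g⁻¹ • P) = g⁻¹ • P := by
      have := congrArg (fun Q => g⁻¹ • Q) h1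
      simpa [smul_smul, mul_assoc] using this
    calc g • P = g • (g⁻¹ • P) := by rw [hall _ h2]
      _ = P := smul_inv_smul g P
  obtain ⟨N, hN, hodd, hcomm⟩ := CfsgLib.ZStar.exists_normal_odd_of_no_fusion hto T hiso
  rcases hN.eq_bot_or_eq_top with e | e
  · apply centralizer_ne_top hG (t := t) fun h => by rw [h, orderOf_one] at hto; norm_num at hto
    refine eq_top_iff.mpr fun g _ => mem_centralizer_singleton_iff.mpr ?_
    have h := hcomm g
    rw [e, mem_bot, mul_inv_eq_one, mul_inv_eq_iff_eq_mul] at h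
    exact h.symm
  · rw [e, card_top] at hodd
    have h2 : 2 ∣ Nat.card G := hto ▸ orderOf_dvd_natCard t
    exact Nat.not_even_iff_odd.mpr hodd (even_iff_two_dvd.mpr h2)

/-- The elements with order divisible by `p`. -/
theorem le_card_dvd_orderOf {n c : ℕ} (P : HasLocal G p n c) (hc : ¬ p ∣ c) :
    n * ((p - 1) * c) ≤ Nat.card {g : G // p ∣ orderOf g} := by
  classical
  haveI := Fintype.ofFinite G
  haveI : Fintype (Sylow p G) := Fintype.ofFinite _
  have hpart : ∀ R : Sylow p G, (p - 1) * c ≤ ((Finset.univ : Finset G).filter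
      fun g => g ∈ centralizer ((R : Subgroup G) : Set G) ∧ p ∣ orderOf g).card := by
    intro R
    obtain ⟨hR, hCc⟩ := P.2 R
    set C := centralizer ((R : Subgroup G) : Set G) with hC
    set Cf := (Finset.univ : Finset G).filter fun g => g ∈ C with hCf
    have hCfc : Cf.card = p * c := by
      rw [hCf, ← hCc, Nat.card_eq_fintype_card, Fintype.card_subtype]
    have hsplit := Finset.card_filter_add_card_filter_not (s := Cf) (fun g => p ∣ orderOf g)
    rw [hCfc, hCf, Finset.filter_filter, Finset.filter_filter] at hsplit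
    -- the others inject into the cosets of `R`
    have hRC : (R : Subgroup G) ≤ C := by
      have hcyc : IsCyclic (R : Subgroup G) := isCyclic_of_prime_card hR
      exact fun a ha => mem_centralizer_iff.mpr fun b hb =>
        congrArg Subtype.val (hcyc.commGroup.mul_comm ⟨b, hb⟩ ⟨a, ha⟩)
    set R' := (R : Subgroup G).subgroupOf C
    have hRi : R'.index = c := by
      have h := R'.card_mul_index
      rw [Nat.card_congr (subgroupOfEquivOfLe hRC).toEquiv, hR, hCc] at h
      exact Nat.eq_of_mul_eq_mul_left hp.out.pos h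
    have hothers : ((Finset.univ : Finset G).filter fun g => g ∈ C ∧ ¬ p ∣ orderOf g).card ≤ c := by
      rw [← Fintype.card_subtype, ← Nat.card_eq_fintype_card, ← hRi, Subgroup.index]
      refine Nat.card_le_card_of_injective
        (fun g => (QuotientGroup.mk (⟨g.1, g.2.1⟩ : C) : C ⧸ R')) ?_
      rintro ⟨a, haC, ha⟩ ⟨b, hbC, hb⟩ hab
      have hm : a⁻¹ * b ∈ (R : Subgroup G) := mem_subgroupOf.mp (QuotientGroup.eq.mp hab)
      have hco : Commute a (a⁻¹ * b) := (mem_centralizer_iff.mp haC _ hm).symm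
      have hcom : Commute a b := by
        have := (Commute.refl a).mul_right hco
        rwa [mul_inv_cancel_left] at this
      have hord : orderOf (a⁻¹ * b) ∣ p := hR ▸ Subgroup.orderOf_dvd_natCard _ hm
      refine Subtype.ext ?_
      show a = b
      rcases (Nat.dvd_prime hp.out).mp hord with e | e
      · exact inv_mul_eq_one.mp (orderOf_eq_one_iff.mp e)
      · exfalso
        have hd := hcom.inv_left.orderOf_mul_dvd_lcm
        rw [e, orderOf_inv] at hd
        rcases hp.out.dvd_mul.mp (hd.trans (Nat.lcm_dvd_mul _ _)) with e' | e'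
        · exact ha e'
        · exact hb e'
    have hpc : p * c = (p - 1) * c + c := by
      conv_lhs => rw [show p = p - 1 + 1 by have := hp.out.two_le; omega, add_one_mul]
    omega
  have hdis : ((Finset.univ : Finset (Sylow p G)) : Set (Sylow p G)).PairwiseDisjoint fun R : Sylow p G =>
      (Finset.univ : Finset G).filter fun g => g ∈ centralizer ((R : Subgroup G) : Set G) ∧ p ∣ orderOf g := by
    intro R _ S _ hne
    rw [Function.onFun, Finset.disjoint_left]
    intro g hgR hgS
    rw [Finset.mem_filter] at hgR hgS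
    obtain ⟨k, hk⟩ := hgR.2.2
    have key : ∀ U : Sylow p G, g ∈ centralizer ((U : Subgroup G) : Set G) →
        zpowers (g ^ k) = (U : Subgroup G) := by
      intro U hU
      have ho : orderOf (g ^ k) = p := by
        have hk0 : k ≠ 0 := fun h => by
          have := orderOf_pos g; rw [hk, h, mul_zero] at this; omega
        rw [orderOf_pow' g hk0, hk, Nat.gcd_mul_left_left, Nat.mul_div_cancel _ (Nat.pos_of_ne_zero hk0)]
      have hz : zpowers (g ^ k) ≤ normalizer ((U : Subgroup G) : Set G) :=
        zpowers_le.mpr (centralizer_le_normalizer _ (pow_mem hU k))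
      have hzp : IsPGroup p (zpowers (g ^ k)) := IsPGroup.of_card (n := 1) (by
        rw [Nat.card_zpowers, ho, pow_one])
      have hle : zpowers (g ^ k) ≤ (U : Subgroup G) :=
        le_sup_left.trans (U.3 (hzp.to_sup_of_normal_right' U.2 hz) le_sup_right).le
      exact eq_of_le_of_card_ge hle (by rw [(P.2 U).1, Nat.card_zpowers, ho])
    exact hne (Sylow.ext (by rw [← key R hgR.2.1, key S hgS.2.1]))
  rw [← P.1, Nat.card_eq_fintype_card (α := Sylow p G), Nat.card_eq_fintype_card, Fintype.card_subtype]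
  calc Fintype.card (Sylow p G) * ((p - 1) * c)
      ≤ ∑ R : Sylow p G, ((Finset.univ : Finset G).filter
          fun g => g ∈ centralizer ((R : Subgroup G) : Set G) ∧ p ∣ orderOf g).card := by
        rw [← Finset.card_univ, ← smul_eq_mul, ← Finset.sum_const]
        exact Finset.sum_le_sum fun R _ => hpart R
    _ = _ := (Finset.card_biUnion hdis).symm
    _ ≤ _ := Finset.card_le_card fun g hg => by
        obtain ⟨R, -, hR⟩ := Finset.mem_biUnion.mp hg
        exact Finset.mem_filter.mpr ⟨Finset.mem_univ _, (Finset.mem_filter.mp hR).2.2⟩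

end CfsgLib.OrderSieve
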