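import Cfsg.Agent.Blocks.PrimeGram.FiveCases

/-!
No simple group of order 2160 has a self-centralising Sylow 5-subgroup with normaliser of order ten.
-/

set_option autoImplicit false

namespace CfsgLib.OrderSieve

open Cfsg CfsgLib.Chars CfsgLib.PrimeGram
open scoped ComplexConjugate Classical

variable {G : Type*} [Group G] [Finite G] [IsSimpleGroup G]

/-- A self-centralising Sylow 5-subgroup with normaliser of order ten. -/
theorem false_of_ten_2160 (hG : ¬ IsMulCommutative G) (hcard : Nat.card G = 2160) [Fact (Nat.Prime 5)]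
    (P : Sylow 5 G) (hP : Nat.card (P : Subgroup G) = 5)
    (he : (Subgroup.centralizer ((P : Subgroup G) : Set G)).relIndex
      (Subgroup.normalizer ((P : Subgroup G) : Set G)) = 2)
    (hC : Nat.card (Subgroup.centralizer ((P : Subgroup G) : Set G)) = 5) : False := by
  haveI : Fact (Nat.Prime 2) := ⟨Nat.prime_two⟩
  haveI := Fintype.ofFinite G
  have hlin := linear_trivial_of_simple hG
  obtain ⟨-, x, X, Y, εX, ε, hz, D⟩ := exists_blockData hG P hP _ (by norm_num) he
  obtain ⟨hS, hCx⟩ := setup_bot D.order hz hC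
  -- an involution in the centre of a Sylow 2-subgroup
  obtain ⟨T⟩ := (inferInstance : Nonempty (Sylow 2 G))
  have hTc : Nat.card (T : Subgroup G) = 16 :=
    ((CfsgLib.SmallSimple.card_sylow_constraints (G := G) 2 135 (k := 4)
      (by rw [hcard]; norm_num) (by norm_num)).2.2 T).1
  haveI : Nontrivial (T : Subgroup G) := Finite.one_lt_card_iff_nontrivial.mp (by rw [hTc]; norm_num)
  haveI := T.2.center_nontrivial
  obtain ⟨q, hq⟩ : ∃ q : Subgroup.center (T : Subgroup G), orderOf q = 2 := by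
    refine exists_prime_orderOf_dvd_card' 2 ?_
    obtain ⟨n, hn⟩ := (IsPGroup.iff_card.mp (T.2.to_subgroup (Subgroup.center (T : Subgroup G))))
    rw [hn]
    refine dvd_pow_self 2 fun h0 => ?_
    rw [h0, pow_zero] at hn
    exact (Finite.one_lt_card.ne' : Nat.card (Subgroup.center (T : Subgroup G)) ≠ 1) hn
  set z : G := ((q : (T : Subgroup G)) : G) with hzdef
  have ho : orderOf z = 2 := by rw [hzdef, Subgroup.orderOf_coe, Subgroup.orderOf_coe, hq]
  have hz1 : z ≠ 1 := fun h => by rw [h, orderOf_one] at ho; norm_num at ho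
  have hz2 : z * z = 1 := by rw [← pow_two, ← ho, pow_orderOf_eq_one]
  have hz5 : ¬ 5 ∣ orderOf z := by rw [ho]; norm_num
  have h16 : 16 ∣ Nat.card (Subgroup.centralizer ({z} : Set G)) := by
    rw [← hTc]
    refine Subgroup.card_dvd_of_le fun t ht => Subgroup.mem_centralizer_singleton_iff.mpr ?_
    exact congrArg Subtype.val
      ((Subgroup.mem_center_iff.mp q.2) (⟨t, ht⟩ : (T : Subgroup G)))
  -- the characters of the block
  obtain ⟨α, hα⟩ := Finset.card_eq_one.mp (show (X.erase (oneChar G)).card = 1 by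
    rw [Finset.card_erase_of_mem D.oneX, D.cardX])
  have hm : α ∈ X.erase (oneChar G) := by rw [hα]; exact Finset.mem_singleton_self α
  have hαX := Finset.mem_of_mem_erase hm
  have hne := Finset.ne_of_mem_erase hm
  have hone : charDegree (oneChar G : G → ℂ) = 1 := charDegree_linChar 1
  obtain ⟨a, b, h1, h2, hb⟩ := exists_even_neg hlin hz2 (isCharacter_coe α)
  set A := charDegree (α : G → ℂ) with hAdef
  have hAab : A = a + b := charDegree_eq_of_map_one (by rw [h1]; push_cast; ring)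
  have hb0 : b ≠ 0 := fun h => hz1 (eq_one_of_value_eq_degree hne (by rw [h2, h1, h]; simp))
  have ha0 : a ≠ 0 := fun h => value_ne_neg_degree hG hne hz1 (by rw [h2, h1, h]; simp)
  have hdeg : ∀ θ ∈ Y, (A = 4 ∧ charDegree (θ : G → ℂ) = 3) ∨
      (A = 9 ∧ charDegree (θ : G → ℂ) = 8) := by
    intro θ hθ
    have hlt : ∀ χ : IrrCharacter G, charDegree (χ : G → ℂ) < 47 := fun χ => by
      have h := charDegree_sq_le χ
      rw [hcard] at h
      nlinarith
    have hA2 : 2 ≤ A := by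
      have := charDegree_pos α
      by_contra h
      exact hne (linear_eq_one hG α (by omega))
    have key : ∀ A ∈ Finset.range 47, ∀ B ∈ Finset.range 47, A ∣ 2160 → B ∣ 2160 → 2 ≤ A →
        ∀ i ∈ ([1, -1] : List ℤ), ∀ s ∈ ([1, -1] : List ℤ),
        (A : ℤ) % 5 = i % 5 → (B : ℤ) % 5 = (s * 2) % 5 → s * (B : ℤ) = 1 * 1 + i * A →
        (A = 4 ∧ B = 3 ∧ i = -1 ∧ s = -1) ∨ (A = 9 ∧ B = 8 ∧ i = -1 ∧ s = -1) := by
      decide +kernel
    have hdeq := D.degree_eq hθ
    rw [← Finset.add_sum_erase _ _ D.oneX, hα, Finset.sum_singleton, D.signOne, hone] at hdeq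
    have := key A (Finset.mem_range.mpr (hlt α)) _ (Finset.mem_range.mpr (hlt θ))
      (hcard ▸ charDegree_dvd_card α) (hcard ▸ charDegree_dvd_card θ) hA2 (εX α)
      (by simpa using D.signX α hαX) ε (by simpa using D.sign) (D.congrX α hαX) (D.congrY θ hθ)
      (by exact_mod_cast hdeq)
    rcases this with ⟨e1, e2, -, -⟩ | ⟨e1, e2, -, -⟩
    · exact Or.inl ⟨e1, e2⟩
    · exact Or.inr ⟨e1, e2⟩
  have hsigns : εX α = -1 ∧ ε = -1 := by
    obtain ⟨θ, hθ⟩ : Y.Nonempty := Finset.card_pos.mp (by rw [D.cardY]; norm_num)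
    have h := D.congrX α hαX
    have h' := D.congrY θ hθ
    have hd := hdeg θ hθ
    rcases D.signX α hαX with e | e <;> rcases D.sign with e' | e' <;> rw [e] at h <;>
      rw [e'] at h' <;> rcases hd with ⟨d1, d2⟩ | ⟨d1, d2⟩ <;> rw [← hAdef, d1] at h <;>
      rw [d2] at h' <;> first | exact ⟨e, e'⟩ | omega
  obtain ⟨heα, hε⟩ := hsigns
  set c : ℤ := (a : ℤ) - b with hcdef
  have hαz : (α : G → ℂ) z = (c : ℂ) := by rw [h2, hcdef]; push_cast; ring
  have hθz : ∀ θ ∈ Y, (θ : G → ℂ) z = ((c - 1 : ℤ) : ℂ) := fun θ hθ => by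
    have h := D.rel θ hθ z hz5
    rw [← Finset.add_sum_erase _ _ D.oneX, hα, Finset.sum_singleton, D.signOne, oneChar_apply,
      hε, heα, hαz] at h
    push_cast at h ⊢
    linear_combination -h
  -- the values at `z`
  have hcases : (A = 4 ∧ c = 0 ∧ ∀ θ ∈ Y, charDegree (θ : G → ℂ) = 3) ∨
      (A = 9 ∧ c = 1 ∧ ∀ θ ∈ Y, charDegree (θ : G → ℂ) = 8) := by
    obtain ⟨θ, hθ⟩ : Y.Nonempty := Finset.card_pos.mp (by rw [D.cardY]; norm_num)
    obtain ⟨j, rfl⟩ := hb
    rcases hdeg θ hθ with ⟨hA, hB⟩ | ⟨hA, hB⟩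
    · refine Or.inl ⟨hA, by omega, fun θ' hθ' => ?_⟩
      rcases hdeg θ' hθ' with ⟨h, h'⟩ | ⟨h, h'⟩ <;> omega
    · refine Or.inr ⟨hA, ?_, fun θ' hθ' => by rcases hdeg θ' hθ' with ⟨h, h'⟩ | ⟨h, h'⟩ <;> omega⟩
      have hθ1 : θ ≠ oneChar G := fun h => Finset.disjoint_left.mp D.disj D.oneX (h ▸ hθ)
      have hne8 : c - 1 ≠ -8 := fun h => value_ne_neg_degree hG hθ1 hz1 (by
        rw [hθz θ hθ, h, ← coe_charDegree, hB]; norm_num)
      obtain ⟨K, hK, hKd⟩ := charDegree_dvd_class θ z (c - 1) (hθz θ hθ)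
      obtain ⟨C', hC'⟩ := h16
      rw [hcard, hC'] at hK
      rw [hB] at hKd
      have hK135 : K ∣ 135 := ⟨C', by linarith⟩
      have h8 : 8 ∣ (c - 1).natAbs := by
        have hcop : Nat.Coprime 8 K := Nat.Coprime.coprime_dvd_right hK135 (by norm_num)
        exact hcop.dvd_of_dvd_mul_left hKd
      omega
  -- pairs of conjugates of `z` with product `x`
  have hx1 : x ≠ 1 := fun h => by
    have := D.order; rw [h, orderOf_one] at this; norm_num at this
  have hval1 : ∀ χ ∈ X, ∀ i : ZMod 5, i ≠ 0 → (χ : G → ℂ) (pw 5 x i) = (εX χ : ℂ) := fun χ hχ i hi => by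
    simpa using D.valueX χ hχ i hi 1 (Commute.one_left x) (by simp)
  have hvan : ∀ χ : IrrCharacter G, χ ∉ X ∪ Y → (χ : G → ℂ) x = 0 := fun χ hχ => by
    rw [Finset.mem_union, not_or] at hχ
    exact D.vanish hCx χ hχ.1 hχ.2
  have hXsum : ∀ F : IrrCharacter G → ℂ, ∑ χ ∈ X ∪ Y, F χ = F (oneChar G) + F α + ∑ θ ∈ Y, F θ := by
    intro F
    rw [Finset.sum_union D.disj, ← Finset.add_sum_erase _ _ D.oneX, hα, Finset.sum_singleton]
  have hαx : (α : G → ℂ) x = -1 := by
    have := hval1 α hαX 1 one_ne_zero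
    rw [pw_one, heα] at this
    rw [this]; norm_num
  obtain ⟨B, hB0, hBY⟩ : ∃ B : ℕ, B ≠ 0 ∧ ∀ θ ∈ Y, charDegree (θ : G → ℂ) = B := by
    rcases hcases with ⟨-, -, h⟩ | ⟨-, -, h⟩
    · exact ⟨3, by norm_num, h⟩
    · exact ⟨8, by norm_num, h⟩
  have hsumY : (B : ℂ) * ∑ θ ∈ Y, (θ : G → ℂ) x = (A : ℂ) - 1 := by
    have h := sum_irr_map_one_mul x
    rw [if_neg hx1, ← Finset.sum_subset (Finset.subset_univ (X ∪ Y))
      (fun χ _ hχ => by rw [hvan χ hχ, mul_zero]), hXsum, oneChar_apply, oneChar_apply, hαx,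
      ← coe_charDegree α, ← hAdef, Finset.sum_congr rfl fun (θ : IrrCharacter G) hθ =>
        show (θ : G → ℂ) 1 * (θ : G → ℂ) x = (B : ℂ) * (θ : G → ℂ) x by
          rw [← coe_charDegree θ, hBY θ hθ], ← Finset.mul_sum] at h
    linear_combination h
  have hBA : B + 1 = A := by
    obtain ⟨θ, hθ⟩ : Y.Nonempty := Finset.card_pos.mp (by rw [D.cardY]; norm_num)
    rcases hdeg θ hθ with ⟨h, h'⟩ | ⟨h, h'⟩ <;> rw [hBY θ hθ] at h' <;> omega
  have hsumY1 : ∑ θ ∈ Y, (θ : G → ℂ) x = 1 := by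
    have hB : (B : ℂ) ≠ 0 := Nat.cast_ne_zero.mpr hB0
    apply mul_left_cancel₀ hB
    rw [hsumY, ← hBA]; push_cast; ring
  set count := (Finset.univ.filter fun q : G × G => q.1 * z * q.1⁻¹ * (q.2 * z * q.2⁻¹) = x).card
    with hcount
  have hpairs : (count : ℂ) = 2160 * (1 - (c : ℂ) ^ 2 / A + ((c : ℂ) - 1) ^ 2 / B) := by
    rw [hcount, sum_pairs, ← Finset.sum_subset (Finset.subset_univ (X ∪ Y))
      (fun χ _ hχ => by rw [map_inv_eq_conj (isCharacter_coe χ), hvan χ hχ, map_zero]; ring), hXsum,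
      Finset.sum_congr rfl fun (θ : IrrCharacter G) hθ =>
        show (θ : G → ℂ) x⁻¹ * ((θ : G → ℂ) z * (θ : G → ℂ) z) * ((Nat.card G : ℂ) / (θ : G → ℂ) 1) =
          conj ((θ : G → ℂ) x) * (((c : ℂ) - 1) ^ 2 * (2160 / (B : ℂ))) by
          rw [map_inv_eq_conj (isCharacter_coe θ), hθz θ hθ, ← coe_charDegree θ, hBY θ hθ, hcard]
          push_cast; ring,
      ← Finset.sum_mul, ← map_sum, hsumY1, map_one, map_inv_eq_conj (isCharacter_coe _),
      map_inv_eq_conj (isCharacter_coe _), hαx, hαz, ← coe_charDegree α, ← hAdef, hcard,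
      oneChar_apply, oneChar_apply, oneChar_apply, map_one, map_neg, map_one]
    push_cast; ring
  have hcnt : count = 2880 ∨ count = 1920 := by
    rcases hcases with ⟨hA, hc, -⟩ | ⟨hA, hc, -⟩
    · left
      rw [hA, hc, show B = 3 by omega] at hpairs
      norm_num at hpairs
      exact_mod_cast hpairs
    · right
      rw [hA, hc, show B = 8 by omega] at hpairs
      norm_num at hpairs
      exact_mod_cast hpairs
  obtain ⟨⟨g, k⟩, hgk⟩ := Finset.card_pos.mp (show 0 < count by omega)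
  rw [Finset.mem_filter] at hgk
  set w : G := g * z * g⁻¹ with hw
  have hw2 : w * w = 1 := by
    rw [hw]
    calc g * z * g⁻¹ * (g * z * g⁻¹) = g * (z * z) * g⁻¹ := by group
      _ = 1 := by rw [hz2]; group
  have hwx : w * x * w⁻¹ = x⁻¹ := by
    have hk2 : k * z * k⁻¹ * (k * z * k⁻¹) = 1 := by
      calc k * z * k⁻¹ * (k * z * k⁻¹) = k * (z * z) * k⁻¹ := by group
        _ = 1 := by rw [hz2]; group
    have hxe : x = w * (k * z * k⁻¹) := hgk.2.symm
    rw [inv_eq_of_mul_eq_one_right hw2]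
    refine (inv_eq_of_mul_eq_one_right ?_).symm
    rw [hxe]
    calc w * (k * z * k⁻¹) * (w * (w * (k * z * k⁻¹)) * w)
        = w * (k * z * k⁻¹) * (w * w) * (k * z * k⁻¹) * w := by group
      _ = w * (k * z * k⁻¹ * (k * z * k⁻¹)) * w := by rw [hw2]; group
      _ = 1 := by rw [hk2, mul_one, hw2]
  have hconj : ∀ χ : IrrCharacter G, (χ : G → ℂ) w = (χ : G → ℂ) z := fun χ => by
    rw [hw, isClassFunction_coe χ]
  have hcw : (count : ℂ) = ((5 * Nat.card (Subgroup.centralizer ({w} : Set G)) ^ 2 : ℕ) : ℂ) := by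
    rw [← hS.card_pairs (by norm_num) hw2 hwx, hcount, sum_pairs, sum_pairs]
    exact Finset.sum_congr rfl fun χ _ => by rw [hconj χ]
  have hC2 : count = 5 * Nat.card (Subgroup.centralizer ({w} : Set G)) ^ 2 := by exact_mod_cast hcw
  have hmk : ConjClasses.mk w = ConjClasses.mk z :=
    (ConjClasses.mk_eq_mk_iff_isConj.mpr (isConj_iff.mpr ⟨g, hw.symm⟩)).symm
  have hCw : Nat.card (Subgroup.centralizer ({w} : Set G)) =
      Nat.card (Subgroup.centralizer ({z} : Set G)) := by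
    have e1 := card_carrier_mul_card_centralizer w
    have e2 := card_carrier_mul_card_centralizer z
    rw [hmk, ← e2] at e1
    refine Nat.eq_of_mul_eq_mul_left ?_ e1
    by_contra h0
    rw [Nat.eq_zero_of_not_pos h0, zero_mul, hcard] at e2
    norm_num at e2
  rw [hCw] at hC2
  obtain ⟨d, hd⟩ := h16
  rw [hd] at hC2
  have hd2 : count = 1280 * d ^ 2 := by rw [hC2]; ring
  rcases hcnt with e | e <;> omega

end CfsgLib.OrderSieve
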