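import Cfsg.Agent.OrderSieve.CommutingBound
import Cfsg.Agent.Blocks.PrimeGram.SmallPrime
import Cfsg.Agent.Blocks.PrimeGram.FiveCases

/-!
A self-centralising Sylow `p`-subgroup whose normaliser induces every automorphism: no member of
the principal block has degree `p - 1` when `(p - 1) / 2` is odd.
-/

set_option autoImplicit false

namespace CfsgLib.OrderSieve

open Cfsg CfsgLib.Chars CfsgLib.PrimeGram
open scoped Classical

universe u

variable {G : Type u} [Group G] [Finite G] [IsSimpleGroup G] {p : ℕ} [hp : Fact p.Prime]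

/-- Signed degrees allowed when degree `p - 1` is excluded. -/
def freeOpts (N p L : ℕ) : List (ℤ × ℤ) :=
  (anyOpts N p L).filter fun t => decide (t.1 ≠ -(((p - 1 : ℕ) : ℕ) : ℤ))

/-- No signed sum vanishes with squares within the order. -/
def freeCheck (N p L : ℕ) : Bool :=
  noMultiset (fun w : ℤ × ℤ => decide (w.1 = 0 ∧ w.2 ≤ (N : ℤ))) id (freeOpts N p L) (p - 1) (1, 1)

theorem false_of_freeCheck (hG : ¬ IsMulCommutative G) (hp2 : p ≠ 2) (P : Sylow p G)
    (hP : Nat.card (P : Subgroup G) = p)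
    (he : (Subgroup.centralizer ((P : Subgroup G) : Set G)).relIndex
      (Subgroup.normalizer ((P : Subgroup G) : Set G)) = p - 1)
    (hC : Nat.card (Subgroup.centralizer ((P : Subgroup G) : Set G)) = p)
    (hodd : (p - 1) % 4 = 2)
    {N L : ℕ} (hN : Nat.card G = N) (hL : N < L * L) (hchk : freeCheck N p L = true) : False := by
  haveI := Fintype.ofFinite G
  have hlin := linear_trivial_of_simple hG
  obtain ⟨x, S, v, hx, hz, hS, hone, hv1, hv, hcong, hval, hvan⟩ := exists_signs P hP he hC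
  have hcast : ∀ χ : IrrCharacter G, (χ : G → ℂ) 1 = (charDegree (χ : G → ℂ) : ℂ) := fun χ =>
    (coe_charDegree χ).symm
  obtain ⟨z, hz1, hz2, hzx⟩ := exists_inverting hx hp2 hz (by
    have h := relIndex_mul_centralizer (P : Subgroup G)
    rw [he, hC] at h
    rw [← h]
    exact (Nat.dvd_of_mod_eq_zero (by omega)).mul_right _) (by
    rw [hC]
    exact fun h => hp2 ((Nat.prime_dvd_prime_iff_eq Nat.prime_two hp.out).mp h).symm)
  have hpw : pw p x (-1) = x⁻¹ := eq_inv_of_mul_eq_one_left (by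
    conv_lhs => arg 2; rw [← pw_one (p := p) (x := x)]
    rw [← pw_add hx, neg_add_cancel, pw_zero])
  have hne1 : (-1 : ZMod p) ≠ 1 := by
    haveI : Fact (2 < p) := ⟨lt_of_le_of_ne hp.out.two_le (Ne.symm hp2)⟩
    exact ZMod.neg_one_ne_one
  have hmem : ∀ χ ∈ S.erase (oneChar G),
      (v χ * (charDegree (χ : G → ℂ) : ℤ), (charDegree (χ : G → ℂ) : ℤ) * charDegree (χ : G → ℂ))
        ∈ freeOpts N p L := by
    intro χ hχ
    have hχS := Finset.mem_of_mem_erase hχ
    have hne := Finset.ne_of_mem_erase hχ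
    set d := charDegree (χ : G → ℂ) with hd
    have h2 : 2 ≤ d := by
      have := charDegree_pos χ
      by_contra h
      exact hne (linear_eq_one hG χ (by omega))
    refine List.mem_filter.mpr ⟨List.mem_flatMap.mpr ⟨_, List.mem_range.mpr (charDegree_lt hN hL χ),
      List.mem_filterMap.mpr ⟨v χ, by simpa using hv χ hχS, ?_⟩⟩, decide_eq_true ?_⟩
    · rw [if_pos ⟨h2, Nat.mod_eq_zero_of_dvd (hN ▸ charDegree_dvd_card χ),
        Int.emod_eq_emod_iff_emod_sub_eq_zero.mp (hcong χ hχS)⟩]
    · intro heq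
      have hvd : v χ = -1 ∧ d = p - 1 := by
        have := hp.out.two_le
        rcases hv χ hχS with e | e <;> simp only [e] at heq <;> push_cast at heq
        · omega
        · exact ⟨e, by omega⟩
      have hsum : ∑ i : ZMod p, (χ : G → ℂ) (pw p x i) = 0 := by
        rw [← Finset.add_sum_erase _ _ (Finset.mem_univ (0 : ZMod p)), pw_zero,
          Finset.sum_congr rfl fun i hi => hval χ hχS i (Finset.ne_of_mem_erase hi),
          Finset.sum_const, Finset.card_erase_of_mem (Finset.mem_univ _), Finset.card_univ,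
          ZMod.card, hcast, ← hd, hvd.2, hvd.1, nsmul_eq_mul]
        push_cast; ring
      have h0 := value_eq_zero_of_free hx (hzx.trans hpw.symm) hne1 (isCharacter_coe χ) hsum
      obtain ⟨a, b, ha, hb, heven⟩ := exists_even_neg hlin hz2 (isCharacter_coe χ)
      rw [h0] at hb
      rw [hcast, ← hd] at ha
      have e1 : (b : ℂ) + b = (d : ℂ) := by linear_combination -ha + hb
      have e2 : b + b = d := by exact_mod_cast e1
      obtain ⟨j, rfl⟩ := heven
      omega
  have hwt1 : (v (oneChar G) * (charDegree (oneChar G : G → ℂ) : ℤ),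
      (charDegree (oneChar G : G → ℂ) : ℤ) * charDegree (oneChar G : G → ℂ)) = ((1, 1) : ℤ × ℤ) := by
    simp [hv1, show charDegree (oneChar G : G → ℂ) = 1 from charDegree_linChar 1]
  have hb := noMultiset_sound _ id _ (p - 1) ((1, 1) : ℤ × ℤ)
    ((S.erase (oneChar G)).toList.map fun χ : IrrCharacter G =>
      (v χ * (charDegree (χ : G → ℂ) : ℤ), (charDegree (χ : G → ℂ) : ℤ) * charDegree (χ : G → ℂ)))
    (by rw [freeCheck] at hchk; exact hchk) (by rw [List.length_map, Finset.length_toList, Finset.card_erase_of_mem hone, hS])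
    (fun a ha => by
      obtain ⟨χ, hχ, rfl⟩ := List.mem_map.mp ha
      rw [Finset.mem_toList] at hχ
      exact hmem χ hχ)
  rw [List.map_id, Finset.sum_map_toList] at hb
  have hA : ((1, 1) : ℤ × ℤ) + ∑ χ ∈ S.erase (oneChar G),
      (v χ * (charDegree (χ : G → ℂ) : ℤ), (charDegree (χ : G → ℂ) : ℤ) * charDegree (χ : G → ℂ)) =
      (∑ χ ∈ S, v χ * (charDegree (χ : G → ℂ) : ℤ),
        ∑ χ ∈ S, (charDegree (χ : G → ℂ) : ℤ) * charDegree (χ : G → ℂ)) := by
    rw [← hwt1, Finset.add_sum_erase S (fun χ : IrrCharacter G =>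
      (v χ * (charDegree (χ : G → ℂ) : ℤ), (charDegree (χ : G → ℂ) : ℤ) * charDegree (χ : G → ℂ))) hone]
    exact Prod.ext (Prod.fst_sum) (Prod.snd_sum)
  rw [hA, decide_eq_false_iff_not] at hb
  refine hb ⟨?_, ?_⟩
  · have hx1 : x ≠ 1 := fun h => hp.out.ne_one (by rw [← hx, h, orderOf_one])
    have h := sum_irr_map_one_mul x
    rw [if_neg hx1, ← Finset.sum_subset (Finset.subset_univ S)
      (fun χ _ hχ => by rw [hvan χ hχ, mul_zero])] at h
    have hvx : ∀ χ ∈ S, (χ : G → ℂ) x = (v χ : ℂ) := fun χ hχ => by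
      have := hval χ hχ 1 one_ne_zero; rwa [pw_one] at this
    rw [Finset.sum_congr rfl fun (χ : IrrCharacter G) hχ =>
      show (χ : G → ℂ) 1 * (χ : G → ℂ) x = ((v χ * (charDegree (χ : G → ℂ) : ℤ) : ℤ) : ℂ) by
        rw [hvx χ hχ, hcast]; push_cast; ring] at h
    exact_mod_cast h
  · have hsub : ∑ χ ∈ S, charDegree (χ : G → ℂ) ^ 2 ≤ Nat.card G :=
      (sum_charDegree_sq (G := G)) ▸ Finset.sum_le_sum_of_subset (Finset.subset_univ _)
    rw [hN] at hsub
    refine le_trans (le_of_eq ?_) (Int.ofNat_le.mpr hsub)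
    push_cast
    exact Finset.sum_congr rfl fun χ _ => (pow_two _).symm

end CfsgLib.OrderSieve
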