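import Cfsg.Agent.OrderSieve.SylowTwentyFive
import Cfsg.Agent.OrderSieve.CommutingBound
import Cfsg.Agent.OrderSieve.InvertFree55
import Cfsg.Agent.OrderSieve.CentralFive55
import Cfsg.Agent.OrderSieve.FiveTen55
import Cfsg.Agent.Blocks.PrimeGram.FiveCases
import Cfsg.Agent.Classical.Linear.Card
import Cfsg.Agent.S0998
import Cfsg.Agent.S1016

/-!
The orders of the non-abelian simple groups above 1092 and at most 3640: only 2448, 2520 and 3420.
-/

set_option autoImplicit false

namespace CfsgLib.OrderSieve

open Cfsg CfsgLib.Sieve.PrimeLocal CfsgLib.PrimeGram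

universe u

/-- The orders in `1093..3640` that survive the sieve. -/
def smallLeftover : List ℕ :=
  [1260, 1344, 1440, 1512, 1680, 1800, 2100, 2160, 2400, 2448, 2520, 2688, 2700, 2880, 3024, 3240,
    3360, 3420, 3600]

/-- Every order in the range is excluded or left over. -/
def smallCovered (lo n : ℕ) : Bool :=
  (List.range n).all fun i => killed (lo + i) || smallLeftover.contains (lo + i)

theorem smallCovered_0 : smallCovered 1093 320 = true := by decide +kernel
theorem smallCovered_1 : smallCovered 1413 320 = true := by decide +kernel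
theorem smallCovered_2 : smallCovered 1733 320 = true := by decide +kernel
theorem smallCovered_3 : smallCovered 2053 320 = true := by decide +kernel
theorem smallCovered_4 : smallCovered 2373 320 = true := by decide +kernel
theorem smallCovered_5 : smallCovered 2693 320 = true := by decide +kernel
theorem smallCovered_6 : smallCovered 3013 320 = true := by decide +kernel
theorem smallCovered_7 : smallCovered 3333 308 = true := by decide +kernel

variable {G : Type u} [Group G] [Finite G] [IsSimpleGroup G]

theorem mem_smallLeftover (hG : ¬ IsMulCommutative G)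
    (h1 : 1092 < Nat.card G) (h2 : Nat.card G ≤ 3640) : Nat.card G ∈ smallLeftover := by
  have key : ∀ lo n, smallCovered lo n = true → lo ≤ Nat.card G → Nat.card G < lo + n →
      Nat.card G ∈ smallLeftover := by
    intro lo n h hlo hhi
    have h' := List.all_eq_true.mp h (Nat.card G - lo) (List.mem_range.mpr (by omega))
    rw [Nat.add_sub_cancel' hlo, not_killed hG rfl (by omega), Bool.false_or,
      List.contains_iff_mem] at h'
    exact h'
  by_cases c0 : Nat.card G < 1413
  · exact key _ _ smallCovered_0 (by omega) (by omega)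
  by_cases c1 : Nat.card G < 1733
  · exact key _ _ smallCovered_1 (by omega) (by omega)
  by_cases c2 : Nat.card G < 2053
  · exact key _ _ smallCovered_2 (by omega) (by omega)
  by_cases c3 : Nat.card G < 2373
  · exact key _ _ smallCovered_3 (by omega) (by omega)
  by_cases c4 : Nat.card G < 2693
  · exact key _ _ smallCovered_4 (by omega) (by omega)
  by_cases c5 : Nat.card G < 3013
  · exact key _ _ smallCovered_5 (by omega) (by omega)
  by_cases c6 : Nat.card G < 3333
  · exact key _ _ smallCovered_6 (by omega) (by omega)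
  exact key _ _ smallCovered_7 (by omega) (by omega)

/-- Local data of the surviving options of a prime of exponent one. -/
theorem local_option (hG : ¬ IsMulCommutative G) {N : ℕ} (hN : Nat.card G = N) (hlt : N < 6400)
    (p m : ℕ) [Fact p.Prime] (hv : validPart N (p, 1, m) = true) :
    ∃ o ∈ goodOptions N p m, HasLocal G p o.1 o.2.2 ∧ ∀ P : Sylow p G,
      (Subgroup.centralizer ((P : Subgroup G) : Set G)).relIndex
          (Subgroup.normalizer ((P : Subgroup G) : Set G)) * (o.1 * o.2.2) = m ∧
        Nat.card (Subgroup.normalizer ((P : Subgroup G) : Set G)) * o.1 = N := by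
  obtain ⟨o, ho, hloc⟩ := exists_goodOption hG hN hlt hv rfl
  refine ⟨o, ho, hloc, fun P => ?_⟩
  have hp : p.Prime := Fact.out
  obtain ⟨-, -, hNe, -⟩ := validPart_sound hv
  simp only [pow_one] at hNe
  have hmul := SylowToolkit.card_normalizer_mul P
  rw [hloc.1, hN] at hmul
  have h := relIndex_mul_centralizer (P : Subgroup G)
  rw [(hloc.2 P).2] at h
  refine ⟨Nat.eq_of_mul_eq_mul_left hp.pos ?_, by first | exact hmul | (rw [← hmul]; ring)⟩
  rw [← hNe, ← hmul, ← h]; ring

theorem false_1260 (hG : ¬ IsMulCommutative G) (hN : Nat.card G = 1260) : False := by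
  haveI : Fact (Nat.Prime 7) := ⟨by norm_num⟩
  haveI : Fact (Nat.Prime 2) := ⟨Nat.prime_two⟩
  obtain ⟨o, ho, hloc, hP⟩ := local_option hG hN (by norm_num) 7 180 (by decide +kernel)
  rw [show goodOptions 1260 7 180 = [(15, 6, 2)] from by decide +kernel, List.mem_singleton] at ho
  subst ho
  obtain ⟨P⟩ := (inferInstance : Nonempty (Sylow 7 G))
  obtain ⟨he, -⟩ := hP P
  exact false_of_fullCheck hG (by norm_num) P (hloc.2 P).1 (by simp only at he; omega) (q := 2)
    (Or.inl rfl) (by rw [(hloc.2 P).2]; norm_num) hN (L := 36) (by norm_num) (by decide +kernel)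

theorem false_1512 (hG : ¬ IsMulCommutative G) (hN : Nat.card G = 1512) : False := by
  haveI : Fact (Nat.Prime 7) := ⟨by norm_num⟩
  haveI : Fact (Nat.Prime 3) := ⟨by norm_num⟩
  obtain ⟨o, ho, hloc, hP⟩ := local_option hG hN (by norm_num) 7 216 (by decide +kernel)
  rw [show goodOptions 1512 7 216 = [(36, 2, 3), (36, 6, 1)] from by decide +kernel] at ho
  simp only [List.mem_cons, List.not_mem_nil, or_false] at ho
  obtain ⟨P⟩ := (inferInstance : Nonempty (Sylow 7 G))
  obtain ⟨he, -⟩ := hP P
  rcases ho with rfl | rfl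
  · exact false_of_index_two hG (by norm_num) P (hloc.2 P).1 (by simp only at he; omega) (q := 3)
      (Or.inr rfl) (by rw [(hloc.2 P).2]; norm_num) hN (L := 39) (by norm_num) (by decide +kernel)
  · exact false_of_freeCheck hG (by norm_num) P (hloc.2 P).1 (by simp only at he; omega)
      (by rw [(hloc.2 P).2]; norm_num) (by norm_num) hN (L := 39) (by norm_num) (by decide +kernel)

theorem false_1680 (hG : ¬ IsMulCommutative G) (hN : Nat.card G = 1680) : False := by
  haveI : Fact (Nat.Prime 5) := ⟨by norm_num⟩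
  haveI : Fact (Nat.Prime 3) := ⟨by norm_num⟩
  obtain ⟨o, ho, hloc, hP⟩ := local_option hG hN (by norm_num) 5 336 (by decide +kernel)
  rw [show goodOptions 1680 5 336 = [(21, 4, 4), (56, 2, 3)] from by decide +kernel] at ho
  simp only [List.mem_cons, List.not_mem_nil, or_false] at ho
  obtain ⟨P⟩ := (inferInstance : Nonempty (Sylow 5 G))
  obtain ⟨he, hNP⟩ := hP P
  rcases ho with rfl | rfl
  · refine false_of_single_fixed hG hloc.1 (by norm_num) P (hloc.2 P).1 (by norm_num) ?_
      (by rw [(hloc.2 P).2]; norm_num) (fun f h1 h2 h3 => by omega)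
    intro T _
    rw [CfsgLib.SylowToolkit.card_sylow_subgroup_eq (p := 2) (k := 4) (m := 105)
      (by rw [hN]; norm_num) (by norm_num) T]
    simp only at hNP
    omega
  · exact false_of_index_two hG (by norm_num) P (hloc.2 P).1 (by simp only at he; omega) (q := 3)
      (Or.inr rfl) (by rw [(hloc.2 P).2]; norm_num) hN (L := 41) (by norm_num) (by decide +kernel)

theorem false_2160 (hG : ¬ IsMulCommutative G) (hN : Nat.card G = 2160) : False := by
  haveI : Fact (Nat.Prime 5) := ⟨by norm_num⟩
  obtain ⟨o, ho, hloc, hP⟩ := local_option hG hN (by norm_num) 5 432 (by decide +kernel)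
  rw [show goodOptions 2160 5 432 = [(36, 4, 3), (216, 2, 1)] from by decide +kernel] at ho
  simp only [List.mem_cons, List.not_mem_nil, or_false] at ho
  obtain ⟨P⟩ := (inferInstance : Nonempty (Sylow 5 G))
  obtain ⟨he, -⟩ := hP P
  rcases ho with rfl | rfl
  · exact false_of_four_three hG P (hloc.2 P).1 (by simp only at he; omega)
      (by rw [(hloc.2 P).2]; norm_num) hN (L := 47) (by norm_num) (by decide +kernel)
  · exact false_of_ten_2160 hG hN P (hloc.2 P).1 (by simp only at he; omega) (by rw [(hloc.2 P).2]; norm_num)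

theorem false_2880 (hG : ¬ IsMulCommutative G) (hN : Nat.card G = 2880) : False := by
  haveI : Fact (Nat.Prime 5) := ⟨by norm_num⟩
  haveI : Fact (Nat.Prime 3) := ⟨by norm_num⟩
  obtain ⟨o, ho, hloc, hP⟩ := local_option hG hN (by norm_num) 5 576 (by decide +kernel)
  rw [show goodOptions 2880 5 576 = [(36, 4, 4), (96, 2, 3)] from by decide +kernel] at ho
  simp only [List.mem_cons, List.not_mem_nil, or_false] at ho
  obtain ⟨P⟩ := (inferInstance : Nonempty (Sylow 5 G))
  obtain ⟨he, -⟩ := hP P
  rcases ho with rfl | rfl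
  · exact false_of_four_two hG P (hloc.2 P).1 (by simp only at he; omega)
      (by rw [(hloc.2 P).2]; norm_num) hN (L := 54) (by norm_num) (by decide +kernel)
  · exact false_of_index_two hG (by norm_num) P (hloc.2 P).1 (by simp only at he; omega) (q := 3)
      (Or.inr rfl) (by rw [(hloc.2 P).2]; norm_num) hN (L := 54) (by norm_num) (by decide +kernel)

theorem false_3024 (hG : ¬ IsMulCommutative G) (hN : Nat.card G = 3024) : False := by
  haveI : Fact (Nat.Prime 7) := ⟨by norm_num⟩
  haveI : Fact (Nat.Prime 2) := ⟨Nat.prime_two⟩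
  obtain ⟨o, ho, hloc, hP⟩ := local_option hG hN (by norm_num) 7 432 (by decide +kernel)
  rw [show goodOptions 3024 7 432 = [(36, 6, 2)] from by decide +kernel, List.mem_singleton] at ho
  subst ho
  obtain ⟨P⟩ := (inferInstance : Nonempty (Sylow 7 G))
  obtain ⟨he, -⟩ := hP P
  exact false_of_fullCheck hG (by norm_num) P (hloc.2 P).1 (by simp only at he; omega) (q := 2)
    (Or.inl rfl) (by rw [(hloc.2 P).2]; norm_num) hN (L := 55) (by norm_num) (by decide +kernel)

theorem false_3240 (hG : ¬ IsMulCommutative G) (hN : Nat.card G = 3240) : False := by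
  haveI : Fact (Nat.Prime 5) := ⟨by norm_num⟩
  haveI : Fact (Nat.Prime 3) := ⟨by norm_num⟩
  obtain ⟨o, ho, hloc, hP⟩ := local_option hG hN (by norm_num) 5 648 (by decide +kernel)
  rw [show goodOptions 3240 5 648 = [(36, 2, 9), (81, 4, 2)] from by decide +kernel] at ho
  simp only [List.mem_cons, List.not_mem_nil, or_false] at ho
  obtain ⟨P⟩ := (inferInstance : Nonempty (Sylow 5 G))
  obtain ⟨he, -⟩ := hP P
  rcases ho with rfl | rfl
  · exact false_of_index_two hG (by norm_num) P (hloc.2 P).1 (by simp only at he; omega) (q := 3)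
      (Or.inr rfl) (by rw [(hloc.2 P).2]; norm_num) hN (L := 57) (by norm_num) (by decide +kernel)
  · exact false_of_four_two hG P (hloc.2 P).1 (by simp only at he; omega)
      (by rw [(hloc.2 P).2]; norm_num) hN (L := 57) (by norm_num) (by decide +kernel)

theorem false_3360 (hG : ¬ IsMulCommutative G) (hN : Nat.card G = 3360) : False := by
  haveI : Fact (Nat.Prime 7) := ⟨by norm_num⟩
  haveI : Fact (Nat.Prime 5) := ⟨by norm_num⟩
  haveI : Fact (Nat.Prime 3) := ⟨by norm_num⟩
  obtain ⟨o, ho, hloc, hP⟩ := local_option hG hN (by norm_num) 5 672 (by decide +kernel)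
  rw [show goodOptions 3360 5 672 = [(21, 4, 8), (56, 4, 3), (336, 2, 1)] from by decide +kernel] at ho
  simp only [List.mem_cons, List.not_mem_nil, or_false] at ho
  obtain ⟨o₇, ho₇, hloc₇, -⟩ := local_option hG hN (by norm_num) 7 480 (by decide +kernel)
  rw [show goodOptions 3360 7 480 = [(120, 2, 2)] from by decide +kernel, List.mem_singleton] at ho₇
  subst ho₇
  obtain ⟨o₃, ho₃, hloc₃, -⟩ := local_option hG hN (by norm_num) 3 1120 (by decide +kernel)
  rw [show goodOptions 3360 3 1120 =
    [(28, 2, 20), (40, 2, 14), (70, 2, 8), (112, 2, 5), (280, 2, 2)] from by decide +kernel] at ho₃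
  simp only [List.mem_cons, List.not_mem_nil, or_false] at ho₃
  obtain ⟨P⟩ := (inferInstance : Nonempty (Sylow 5 G))
  obtain ⟨he, hNP⟩ := hP P
  rcases ho with rfl | rfl | rfl
  · refine false_of_single_fixed hG hloc.1 (by norm_num) P (hloc.2 P).1 (by norm_num) ?_
      (by rw [(hloc.2 P).2]; norm_num) (fun f h1 h2 h3 => by omega)
    intro T _
    rw [CfsgLib.SylowToolkit.card_sylow_subgroup_eq (p := 2) (k := 5) (m := 105)
      (by rw [hN]; norm_num) (by norm_num) T]
    simp only at hNP
    omega
  · -- the element of order three in the centraliser is normalised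
    obtain ⟨h1, h2⟩ := card_sylow_dvd_of_normalized hloc hloc₃ (by norm_num) (by norm_num)
      (by norm_num) (by decide +kernel)
    have h5 := dvd_of_dvd hloc hloc₃ (by norm_num) (by norm_num)
    rcases ho₃ with rfl | rfl | rfl | rfl | rfl <;> simp only at h1 h2 h5 <;> omega
  · -- too many elements
    have h35 : ¬ 5 ∣ o₃.2.2 := fun h => by
      have := dvd_of_dvd hloc₃ hloc (by norm_num) h
      norm_num at this
    have h37 : ¬ 7 ∣ o₃.2.2 := fun h => by
      have := dvd_of_dvd hloc₃ hloc₇ (by norm_num) h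
      norm_num at this
    have h57 : ∀ g : G, ¬ (5 ∣ orderOf g ∧ 7 ∣ orderOf g) := fun g h =>
      not_dvd_both hloc (by norm_num) h.1 h.2
    have h53 : ∀ g : G, ¬ (5 ∣ orderOf g ∧ 3 ∣ orderOf g) := fun g h =>
      not_dvd_both hloc (by norm_num) h.1 h.2
    have h73 : ∀ g : G, ¬ (7 ∣ orderOf g ∧ 3 ∣ orderOf g) := fun g h =>
      not_dvd_both hloc₇ (by norm_num) h.1 h.2
    have e5 := le_card_dvd_orderOf hloc (by norm_num)
    have e7 := le_card_dvd_orderOf hloc₇ (by norm_num)
    have e3 := le_card_dvd_orderOf hloc₃ (by rcases ho₃ with rfl | rfl | rfl | rfl | rfl <;> norm_num)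
    classical
    haveI := Fintype.ofFinite G
    simp only [Nat.card_eq_fintype_card, Fintype.card_subtype] at e5 e7 e3
    have hd1 : Disjoint (Finset.univ.filter fun g : G => 5 ∣ orderOf g)
        (Finset.univ.filter fun g : G => 7 ∣ orderOf g) :=
      Finset.disjoint_filter.mpr fun g _ ha hb => h57 g ⟨ha, hb⟩
    have hd2 : Disjoint ((Finset.univ.filter fun g : G => 5 ∣ orderOf g) ∪
        (Finset.univ.filter fun g : G => 7 ∣ orderOf g)) (Finset.univ.filter fun g : G => 3 ∣ orderOf g) :=
      Finset.disjoint_union_left.mpr ⟨Finset.disjoint_filter.mpr fun g _ ha hb => h53 g ⟨ha, hb⟩,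
        Finset.disjoint_filter.mpr fun g _ ha hb => h73 g ⟨ha, hb⟩⟩
    have htot := Finset.card_le_univ (((Finset.univ.filter fun g : G => 5 ∣ orderOf g) ∪
        (Finset.univ.filter fun g : G => 7 ∣ orderOf g)) ∪ Finset.univ.filter fun g : G => 3 ∣ orderOf g)
    rw [Finset.card_union_of_disjoint hd2, Finset.card_union_of_disjoint hd1, ← Nat.card_eq_fintype_card,
      hN] at htot
    rcases ho₃ with rfl | rfl | rfl | rfl | rfl <;> simp only at e5 e7 e3 h35 h37 <;> omega
where
  not_dvd_both {p q n c : ℕ} [Fact p.Prime] [Fact q.Prime] {g : G} (P : HasLocal G p n c)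
      (hq : ¬ q ∣ p * c) (hp' : p ∣ orderOf g) (hq' : q ∣ orderOf g) : False := by
    obtain ⟨a, ha⟩ := hp'
    obtain ⟨b, hb⟩ := hq'
    have hg0 := orderOf_pos g
    have hyo : orderOf (g ^ a) = p := by
      have ha0 : a ≠ 0 := fun h => by rw [ha, h, mul_zero] at hg0; omega
      rw [orderOf_pow' g ha0, ha, Nat.gcd_mul_left_left, Nat.mul_div_cancel _ (Nat.pos_of_ne_zero ha0)]
    have hzo : orderOf (g ^ b) = q := by
      have hb0 : b ≠ 0 := fun h => by rw [hb, h, mul_zero] at hg0; omega
      rw [orderOf_pow' g hb0, hb, Nat.gcd_mul_left_left, Nat.mul_div_cancel _ (Nat.pos_of_ne_zero hb0)]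
    obtain ⟨R, hR⟩ := exists_zpowers_eq_sylow P hyo
    apply hq
    rw [← (P.2 R).2, ← hzo]
    refine Subgroup.orderOf_dvd_natCard _ ?_
    rw [hR, Subgroup.mem_centralizer_iff]
    intro w hw
    obtain ⟨i, rfl⟩ := Subgroup.mem_zpowers_iff.mp hw
    exact (((Commute.refl g).pow_left a).zpow_left i).pow_right b

theorem false_1344_2688 (hG : ¬ IsMulCommutative G) {b : ℕ} (hN : Nat.card G = 3 * 7 * 2 ^ b)
    (hb : 4 ≤ b) : False := by
  have hcyc : ¬ IsCyclic G := fun h => hG ⟨⟨fun x y => h.commGroup.mul_comm x y⟩⟩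
  have hbig : 336 ≤ Nat.card G := by
    rw [hN]
    calc 336 = 3 * 7 * 2 ^ 4 := by norm_num
      _ ≤ _ := Nat.mul_le_mul_left _ (Nat.pow_le_pow_right (by norm_num) hb)
  rcases Cfsg.Agent.S0998.result hcyc 3 2 7 b Nat.prime_three Nat.prime_two (by norm_num) (by norm_num)
    (by norm_num) (by norm_num) hN with ⟨F, _, _, hF, ⟨e⟩⟩ | ⟨F, _, _, hF, ⟨e⟩⟩
  all_goals
    have h := Nat.card_congr e.toEquiv
    have h' := CfsgLib.Classical.Linear.card_psl_two (F := F)
    rw [hF, ← h] at h'
    norm_num at h'
    omega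

/-- The orders of simple groups in the range. -/
theorem small_orders (hG : ¬ IsMulCommutative G) (h1 : 1092 < Nat.card G) (h2 : Nat.card G ≤ 3640) :
    Nat.card G = 2448 ∨ Nat.card G = 2520 ∨ Nat.card G = 3420 := by
  haveI : Fact (Nat.Prime 5) := ⟨by norm_num⟩
  have h := mem_smallLeftover hG h1 h2
  simp only [smallLeftover, List.mem_cons, List.not_mem_nil, or_false] at h
  rcases h with h | h | h | h | h | h | h | h | h | h | h | h | h | h | h | h | h | h | h
  · exact (false_1260 hG h).elim
  · exact (false_1344_2688 hG (b := 6) (by rw [h]; norm_num) (by norm_num)).elim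
  · exact absurd h Cfsg.Agent.S1016.result
  · exact (false_1512 hG h).elim
  · exact (false_1680 hG h).elim
  · exact (false_of_fiveCheck hG h (M := 72) (by norm_num) (by norm_num) (by decide +kernel)).elim
  · exact (false_of_fiveCheck hG h (M := 84) (by norm_num) (by norm_num) (by decide +kernel)).elim
  · exact (false_2160 hG h).elim
  · exact (false_of_fiveCheck hG h (M := 96) (by norm_num) (by norm_num) (by decide +kernel)).elim
  · exact Or.inl h
  · exact Or.inr (Or.inl h)
  · exact (false_1344_2688 hG (b := 7) (by rw [h]; norm_num) (by norm_num)).elim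
  · exact (false_of_fiveCheck hG h (M := 108) (by norm_num) (by norm_num) (by decide +kernel)).elim
  · exact (false_2880 hG h).elim
  · exact (false_3024 hG h).elim
  · exact (false_3240 hG h).elim
  · exact (false_3360 hG h).elim
  · exact Or.inr (Or.inr h)
  · exact (false_of_fiveCheck hG h (M := 144) (by norm_num) (by norm_num) (by decide +kernel)).elim

end CfsgLib.OrderSieve
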